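import Cfsg.Agent.H501.LinTrans

/-!
# Groups with a normal elementary abelian subgroup whose subgroups of equal order are conjugate
-/

set_option autoImplicit false

namespace Cfsg.Agent.H501.AffRec

open Subgroup

section Embed

variable {Γ : Type*} [Group Γ] (S A : Subgroup Γ) [hSn : S.Normal]
  (hSA : IsComplement' S A) {F : Type*} [Field F] (θ : Additive S ≃+ F)

/-- The bijection of the cosets of a complement with `F`. -/
noncomputable def tau (hSA : IsComplement' S A) : F ≃ Γ ⧸ A :=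
  Equiv.ofBijective (fun t => (((Additive.toMul (θ.symm t) : S) : Γ) : Γ ⧸ A)) (by
    constructor
    · intro t t' h
      rw [QuotientGroup.eq] at h
      have h1 : ((Additive.toMul (θ.symm t) : S) : Γ)⁻¹ * ((Additive.toMul (θ.symm t') : S) : Γ) ∈ S :=
        mul_mem (inv_mem (Subtype.prop _)) (Subtype.prop _)
      have h2 := hSA.disjoint.le_bot (mem_inf.mpr ⟨h1, h⟩)
      rw [mem_bot, inv_mul_eq_one] at h2
      exact θ.symm.injective (Additive.toMul.injective (Subtype.ext h2))
    · intro q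
      obtain ⟨g, rfl⟩ := QuotientGroup.mk_surjective q
      obtain ⟨⟨s, a⟩, hsa⟩ := hSA.2 g
      refine ⟨θ (Additive.ofMul s), ?_⟩
      have hsa' : (s : Γ) * a = g := hsa
      show (((Additive.toMul (θ.symm (θ (Additive.ofMul s))) : S) : Γ) : Γ ⧸ A) = (g : Γ ⧸ A)
      rw [AddEquiv.symm_apply_apply, ← hsa']
      symm
      rw [QuotientGroup.eq]
      simp)

theorem tau_apply (t : F) : tau S A θ hSA t = (((Additive.toMul (θ.symm t) : S) : Γ) : Γ ⧸ A) := rfl

theorem tau_symm_mk (s : S) : (tau S A θ hSA).symm ((s : Γ) : Γ ⧸ A) = θ (Additive.ofMul s) := by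
  rw [Equiv.symm_apply_eq, tau_apply, AddEquiv.symm_apply_apply]
  rfl

/-- The permutation representation on `F`. -/
noncomputable def perm (hSA : IsComplement' S A) : Γ →* Equiv.Perm F :=
  ((tau S A θ hSA).symm.permCongrHom.toMonoidHom).comp (MulAction.toPermHom Γ (Γ ⧸ A))

theorem perm_apply (g : Γ) (t : F) :
    perm S A θ hSA g t = (tau S A θ hSA).symm (g • tau S A θ hSA t) := rfl

theorem perm_mul (s : S) (a : A) (t : F) :
    perm S A θ hSA ((s : Γ) * a) t = θ (Additive.ofMul (MulAut.conjNormal (a : Γ) (Additive.toMul (θ.symm t)))) + θ (Additive.ofMul s) := by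
  rw [perm_apply, tau_apply]
  have h1 : ((s : Γ) * a) • (((Additive.toMul (θ.symm t) : S) : Γ) : Γ ⧸ A) =
      (((s * MulAut.conjNormal (a : Γ) (Additive.toMul (θ.symm t)) : S) : Γ) : Γ ⧸ A) := by
    rw [MulAction.Quotient.smul_coe]
    symm
    rw [QuotientGroup.eq]
    rw [Subgroup.coe_mul, MulAut.conjNormal_apply]
    have : (↑s * (↑a * ((Additive.toMul (θ.symm t) : S) : Γ) * (a : Γ)⁻¹))⁻¹ *
        (((s : Γ) * a) • ((Additive.toMul (θ.symm t) : S) : Γ)) = a := by
      rw [smul_eq_mul]; group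
    rw [this]
    exact a.2
  rw [h1, tau_symm_mk, ofMul_mul, map_add, add_comm]

theorem perm_injective (hCS : centralizer (S : Set Γ) ≤ S) : Function.Injective (perm S A θ hSA) := by
  rw [injective_iff_map_eq_one]
  intro g hg
  obtain ⟨⟨s, a⟩, hsa⟩ := hSA.2 g
  have hsa' : (s : Γ) * a = g := hsa
  rw [← hsa'] at hg ⊢
  have h0 : ∀ t, θ (Additive.ofMul (MulAut.conjNormal (a : Γ) (Additive.toMul (θ.symm t)))) +
      θ (Additive.ofMul s) = t := by
    intro t
    rw [← perm_mul S A hSA θ s a t, hg]; rfl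
  have hs : s = 1 := by
    have h1 := h0 0
    rw [map_zero, toMul_zero, map_one, ofMul_one, map_zero, zero_add] at h1
    have h2 : Additive.ofMul s = 0 := θ.injective (by rw [h1, map_zero])
    exact h2
  subst hs
  have ha : (a : Γ) ∈ centralizer (S : Set Γ) := by
    rw [mem_centralizer_iff]
    intro x hx
    have h1 := h0 (θ (Additive.ofMul ⟨x, hx⟩))
    rw [ofMul_one, map_zero, add_zero, AddEquiv.symm_apply_apply] at h1
    have h2 : MulAut.conjNormal (a : Γ) (⟨x, hx⟩ : S) = ⟨x, hx⟩ := θ.injective h1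
    have h3 := congrArg Subtype.val h2
    rw [MulAut.conjNormal_apply] at h3
    exact (mul_inv_eq_iff_eq_mul.mp h3).symm
  have h4 := hSA.disjoint.le_bot (mem_inf.mpr ⟨hCS ha, a.2⟩)
  rw [mem_bot] at h4
  rw [h4]; simp

end Embed

theorem ringAut_pow (p n : ℕ) [Fact p.Prime] (hn : n ≠ 0) (φ : RingAut (GaloisField p n)) :
    φ ^ n = 1 := by
  have h := LinTrans.card_ringAut p n hn
  have h2 : φ ^ Nat.card (RingAut (GaloisField p n)) = 1 := pow_card_eq_one'
  exact (congrArg (fun m => φ ^ m) h).symm.trans h2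

/-- The field automorphism attached to an element of order dividing `q` has order dividing `q`. -/
theorem aut_pow {V : Type*} [AddCommGroup V] {H : Type*} [Group H] [DistribMulAction H V]
    {F : Type*} [Field F] (ε : V ≃+ F) (y : H) (a : Fˣ) (φ : F ≃+* F)
    (h : ∀ v, ε (y • v) = a * φ (ε v)) {q : ℕ} (hyq : y ^ q = 1) : (φ : RingAut F) ^ q = 1 := by
  have hpow : ∀ k : ℕ, ∃ b : Fˣ, ∀ v, ε (y ^ k • v) = b * (φ ^ k : F ≃+* F) (ε v) := by
    intro k
    induction k with
    | zero => exact ⟨1, fun v => by simp⟩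
    | succ k ih =>
      obtain ⟨b, hb⟩ := ih
      refine ⟨a * Units.map (φ : F →* F) b, fun v => ?_⟩
      rw [pow_succ', mul_smul, h, hb, map_mul, pow_succ', RingAut.mul_apply, Units.val_mul,
        mul_assoc]
      rfl
  obtain ⟨b, hb⟩ := hpow q
  have h1 := hb (ε.symm 1)
  rw [hyq, one_smul, AddEquiv.apply_symm_apply, map_one, mul_one] at h1
  apply RingEquiv.ext
  intro t
  have h2 := hb (ε.symm t)
  rw [hyq, one_smul, AddEquiv.apply_symm_apply, ← h1, one_mul] at h2
  exact h2.symm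

/-- The action of a subgroup on a normal abelian subgroup, written additively. -/
@[reducible] def actA {Γ : Type*} [Group Γ] (S A : Subgroup Γ) [hSn : S.Normal] :
    DistribMulAction A (Additive S) where
  smul a v := Additive.ofMul (MulAut.conjNormal (a : Γ) (Additive.toMul v))
  one_smul v := by
    show Additive.ofMul (MulAut.conjNormal ((1 : A) : Γ) (Additive.toMul v)) = v
    simp
  mul_smul a b v := by
    show Additive.ofMul (MulAut.conjNormal ((a * b : A) : Γ) (Additive.toMul v)) = Additive.ofMul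
      (MulAut.conjNormal (a : Γ) (MulAut.conjNormal (b : Γ) (Additive.toMul v)))
    rw [Subgroup.coe_mul, map_mul]; rfl
  smul_zero a := by
    show Additive.ofMul (MulAut.conjNormal (a : Γ) (Additive.toMul (0 : Additive S))) = 0
    rw [toMul_zero, map_one]; rfl
  smul_add a v w := by
    show Additive.ofMul (MulAut.conjNormal (a : Γ) (Additive.toMul (v + w))) = _
    rw [toMul_add, map_mul]; rfl

theorem main {Γ : Type*} [Group Γ] [Finite Γ] (hsol : Group.IsSolvable Γ) {p n : ℕ}
    [hpF : Fact p.Prime] (S : Subgroup Γ) [hSn : S.Normal] (hc : ∀ a ∈ S, ∀ b ∈ S, a * b = b * a)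
    (hexp : ∀ a ∈ S, a ^ p = 1) (hcard : Nat.card S = p ^ n) (hn : 3 ≤ n)
    (hcop : (Nat.card S).Coprime S.index) (hCS : centralizer (S : Set Γ) ≤ S)
    (hT : ∀ U W : Subgroup Γ, U ≤ S → W ≤ S → Nat.card U = Nat.card W →
      ∃ g : Γ, W = U.map (MulAut.conj g).toMonoidHom) :
    (n = 3 ∧ (∃ f : Γ →* ↥(Cfsg.semiaffineGroup (GaloisField p 3)), Function.Injective f) ∧
      (p = 2 → Nonempty (Γ ≃* Cfsg.semiaffineGroup (GaloisField 2 3)) ∨
               Nonempty (Γ ≃* Cfsg.affineGroup (GaloisField 2 3)))) ∨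
    (n = 5 ∧ p = 2 ∧ Nonempty (Γ ≃* Cfsg.semiaffineGroup (GaloisField 2 5))) := by
  classical
  obtain ⟨A, hSA⟩ := exists_right_complement'_of_coprime hcop
  let : CommGroup S := { (inferInstance : Group S) with
    mul_comm := fun a b => Subtype.ext (hc a a.2 b b.2) }
  have hpV : ∀ v : (Additive S), p • v = 0 := fun v => by
    show Additive.ofMul ((Additive.toMul v) ^ p) = 0
    rw [show (Additive.toMul v) ^ p = 1 from Subtype.ext (hexp _ (Additive.toMul v).2)]; rfl
  obtain ⟨inst⟩ : Nonempty (Module (ZMod p) (Additive S)) := ⟨AddCommGroup.zmodModule hpV⟩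
  let : DistribMulAction A (Additive S) := actA S A
  have hsmul : ∀ (a : A) (v : (Additive S)), a • v = Additive.ofMul (MulAut.conjNormal (a : Γ) (Additive.toMul v)) :=
    fun a v => rfl
  have hcomm : SMulCommClass A (ZMod p) (Additive S) := ⟨fun a k v => by
    exact ZMod.map_smul (DistribSMul.toAddMonoidHom (Additive S) a) k v⟩
  have hfaith : FaithfulSMul A (Additive S) := ⟨fun {a b} h => by
    have h1 : ((a⁻¹ * b : A) : Γ) ∈ centralizer (S : Set Γ) := by
      rw [mem_centralizer_iff]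
      intro x hx
      have h2 := h (Additive.ofMul ⟨x, hx⟩)
      have h3 : (a⁻¹ * b) • (Additive.ofMul (⟨x, hx⟩ : S) : (Additive S)) = Additive.ofMul ⟨x, hx⟩ := by
        rw [mul_smul, ← h2, inv_smul_smul]
      have h4 : MulAut.conjNormal ((a⁻¹ * b : A) : Γ) (⟨x, hx⟩ : S) = ⟨x, hx⟩ := h3
      have h5 := congrArg Subtype.val h4
      rw [MulAut.conjNormal_apply] at h5
      exact (mul_inv_eq_iff_eq_mul.mp h5).symm
    have h6 := hSA.disjoint.le_bot (mem_inf.mpr ⟨hCS h1, (a⁻¹ * b).2⟩)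
    rw [mem_bot] at h6
    have h7 : a⁻¹ * b = 1 := Subtype.ext h6
    exact inv_mul_eq_one.mp h7⟩
  have hAsol : Group.IsSolvable A := inferInstance
  have hVfin : Finite (Additive S) := inferInstanceAs (Finite S)
  have hVc : Nat.card (Additive S) = p ^ n := hcard
  have hfr : Module.finrank (ZMod p) (Additive S) = n := by
    have h1 := Module.natCard_eq_pow_finrank (K := ZMod p) (V := Additive S)
    rw [hVc, Nat.card_zmod] at h1
    exact (Nat.pow_right_injective hpF.out.two_le h1).symm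
  -- transitivity
  have hTA : ∀ U W : Subgroup Γ, U ≤ S → W ≤ S → Nat.card U = Nat.card W →
      ∃ a : A, ∀ u (hu : u ∈ U), (a : Γ) * u * (a : Γ)⁻¹ ∈ W := by
    intro U W hU hW hUW
    obtain ⟨g, hg⟩ := hT U W hU hW hUW
    obtain ⟨⟨s, a⟩, hsa⟩ := hSA.symm.2 g
    have hsa' : (s : Γ) * a = g := hsa
    refine ⟨s, fun u hu => ?_⟩
    rw [hg]
    refine ⟨u, hu, ?_⟩
    show g * u * g⁻¹ = _
    have h1 : (a : Γ) * u = u * a := hc a a.2 u (hU hu)
    calc g * u * g⁻¹ = (s : Γ) * ((a : Γ) * u) * (a : Γ)⁻¹ * (s : Γ)⁻¹ := by rw [← hsa']; group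
      _ = (s : Γ) * u * (s : Γ)⁻¹ := by rw [h1]; group
  have hT1 : ∀ v w : (Additive S), v ≠ 0 → w ≠ 0 → ∃ (a : A) (k : ZMod p), a • v = k • w := by
    intro v w hv hw
    have hord : ∀ x : S, x ≠ 1 → Nat.card (zpowers (x : Γ)) = p := by
      intro x hx
      rw [Nat.card_zpowers]
      exact orderOf_eq_prime (hexp x x.2) (fun h => hx (Subtype.ext h))
    obtain ⟨a, ha⟩ := hTA (zpowers ((Additive.toMul v : S) : Γ)) (zpowers ((Additive.toMul w : S) : Γ))
      (zpowers_le.mpr (Subtype.prop _)) (zpowers_le.mpr (Subtype.prop _))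
      (by rw [hord (Additive.toMul v) hv, hord (Additive.toMul w) hw])
    obtain ⟨k, hk⟩ := mem_zpowers_iff.mp (ha _ (mem_zpowers _))
    refine ⟨a, (k : ZMod p), ?_⟩
    rw [hsmul, Int.cast_smul_eq_zsmul]
    show Additive.ofMul _ = Additive.ofMul ((Additive.toMul w) ^ k)
    congr 1
    apply Subtype.ext
    rw [MulAut.conjNormal_apply, ← hk]
    rfl
  have hT2 : ∀ U W : Submodule (ZMod p) (Additive S), Module.finrank (ZMod p) U = 2 →
      Module.finrank (ZMod p) W = 2 → ∃ a : A, ∀ u ∈ U, a • u ∈ W := by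
    intro U W hU hW
    have key : ∀ U : Submodule (ZMod p) (Additive S), Module.finrank (ZMod p) U = 2 →
        Nat.card ((AddSubgroup.toSubgroup' U.toAddSubgroup).map S.subtype) = p ^ 2 := by
      intro U hU
      rw [Subgroup.card_map_of_injective S.subtype_injective]
      have h1 := Module.natCard_eq_pow_finrank (K := ZMod p) (V := U)
      rw [hU, Nat.card_zmod] at h1
      exact h1
    obtain ⟨a, ha⟩ := hTA ((AddSubgroup.toSubgroup' U.toAddSubgroup).map S.subtype)
      ((AddSubgroup.toSubgroup' W.toAddSubgroup).map S.subtype)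
      (by rintro _ ⟨x, _, rfl⟩; exact x.2) (by rintro _ ⟨x, _, rfl⟩; exact x.2)
      (by rw [key U hU, key W hW])
    refine ⟨a, fun u hu => ?_⟩
    obtain ⟨w, hw, hw'⟩ := ha ((Additive.toMul u : S) : Γ) ⟨Additive.toMul u, hu, rfl⟩
    have h2 : w = MulAut.conjNormal (a : Γ) (Additive.toMul u) := by
      apply Subtype.ext
      rw [MulAut.conjNormal_apply]
      exact hw'
    rw [hsmul, ← h2]
    exact hw
  obtain ⟨hcases, ⟨θ, hθ⟩, hAd, hA2⟩ := LinTrans.main (H := A) hAsol hfr hn hT1 hT2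
  have hΓ : Nat.card Γ = p ^ n * Nat.card A := by
    rw [← hSA.card_mul_card, hcard]
  have hinj := perm_injective S A hSA θ hCS
  have hmem : ∀ g : Γ, perm S A θ hSA g ∈ Cfsg.semiaffineGroup (GaloisField p n) := by
    intro g
    obtain ⟨⟨s, a⟩, hsa⟩ := hSA.2 g
    have hsa' : (s : Γ) * a = g := hsa
    obtain ⟨c, φ, hc'⟩ := hθ a
    refine ⟨c, θ (Additive.ofMul s), φ, fun t => ?_⟩
    have h1 := hc' (θ.symm t)
    rw [AddEquiv.apply_symm_apply, hsmul] at h1
    rw [← hsa', perm_mul, h1]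
  have hcF : Nat.card (GaloisField p n) = p ^ n := GaloisField.card p n (by omega)
  have hcS := LinTrans.card_semiaffine (GaloisField p n)
  rw [LinTrans.card_ringAut p n (by omega), hcF] at hcS
  have hfull : Nat.card A = n * (p ^ n - 1) →
      Nonempty (Γ ≃* Cfsg.semiaffineGroup (GaloisField p n)) := by
    intro hA
    refine ⟨MulEquiv.ofBijective ((perm S A θ hSA).codRestrict _ hmem) ?_⟩
    rw [Nat.bijective_iff_injective_and_card]
    refine ⟨fun x y hxy => hinj (congrArg Subtype.val hxy), ?_⟩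
    rw [hΓ, hcS, hA]; ring
  rcases hcases with rfl | ⟨rfl, rfl⟩
  · left
    refine ⟨rfl, ⟨(perm S A θ hSA).codRestrict _ hmem, fun x y hxy => hinj (congrArg Subtype.val hxy)⟩,
      ?_⟩
    rintro rfl
    obtain ⟨h7, -⟩ := hA2 rfl
    norm_num at h7 hAd
    have hA : Nat.card A = 7 ∨ Nat.card A = 21 := by
      obtain ⟨k, hk⟩ := h7
      rw [hk] at hAd ⊢
      have h3 : k ∣ 3 := Nat.dvd_of_mul_dvd_mul_left (by norm_num : 0 < 7) (by simpa using hAd)
      rcases (Nat.dvd_prime Nat.prime_three).mp h3 with h | h <;> omega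
    rcases hA with hA | hA
    · right
      have hmem' : ∀ g : Γ, perm S A θ hSA g ∈ Cfsg.affineGroup (GaloisField 2 3) := by
        intro g
        obtain ⟨⟨s, a⟩, hsa⟩ := hSA.2 g
        have hsa' : (s : Γ) * a = g := hsa
        obtain ⟨c, φ, hc'⟩ := hθ a
        have ha7 : a ^ 7 = 1 := by rw [← hA]; exact pow_card_eq_one'
        have h1 := aut_pow θ a c φ hc' ha7
        have h2 : (φ : RingAut (GaloisField 2 3)) ^ 3 = 1 := ringAut_pow 2 3 (by norm_num) φ
        have h3 : (φ : RingAut (GaloisField 2 3)) = 1 := by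
          have h4 : orderOf (φ : RingAut (GaloisField 2 3)) ∣ Nat.gcd 7 3 :=
            Nat.dvd_gcd (orderOf_dvd_of_pow_eq_one h1) (orderOf_dvd_of_pow_eq_one h2)
          exact orderOf_eq_one_iff.mp (Nat.dvd_one.mp h4)
        refine ⟨c, θ (Additive.ofMul s), fun t => ?_⟩
        have h5 := hc' (θ.symm t)
        rw [AddEquiv.apply_symm_apply, hsmul, h3] at h5
        rw [← hsa', perm_mul, h5]
        rfl
      refine ⟨MulEquiv.ofBijective ((perm S A θ hSA).codRestrict _ hmem') ?_⟩
      rw [Nat.bijective_iff_injective_and_card]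
      refine ⟨fun x y hxy => hinj (congrArg Subtype.val hxy), ?_⟩
      rw [hΓ, LinTrans.card_affine, hcF, hA]; norm_num
    · left
      exact hfull (by rw [hA]; norm_num)
  · right
    exact ⟨rfl, rfl, hfull (by rw [(hA2 rfl).2 rfl]; norm_num)⟩

end Cfsg.Agent.H501.AffRec
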